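import Mathlib
import Cfsg.Agent.Lib.Helper41.CS3.GoodDefs
import Cfsg.Agent.Lib.Helper24.CS3.NGTools

/-!
# CS3 (S4284), part GOOD, package [S3] (Step 3), with small shared tools.
-/

set_option autoImplicit false

namespace Cfsg.Agent.Lib.Helper78.CS3

open Cfsg.Agent.Lib.Helper81.CS3 Cfsg.Agent.Lib.Helper41.CS3

universe u

variable {G : Type u} [Group G]

theorem gd_mem_cn {a x : G} : x ∈ Cn a ↔ x * a = a * x :=
  Subgroup.mem_centralizer_singleton_iff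

theorem gd_mem_cn_conj {a g x : G} : x ∈ Cn (g * a * g⁻¹) ↔ g⁻¹ * x * g ∈ Cn a := by
  rw [gd_mem_cn, gd_mem_cn]
  constructor
  · intro h
    have e : g⁻¹ * x * g * a = g⁻¹ * (x * (g * a * g⁻¹)) * g := by group
    rw [e, h]; group
  · intro h
    have e : x * (g * a * g⁻¹) = g * (g⁻¹ * x * g * a) * g⁻¹ := by group
    rw [e, h]; group

theorem gd_mem_cn_conj2 {a g x : G} : g⁻¹ * x * g ∈ Cn (g⁻¹ * a * g) ↔ x ∈ Cn a := by
  rw [gd_mem_cn, gd_mem_cn]
  constructor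
  · intro h
    have e : x * a = g * (g⁻¹ * x * g * (g⁻¹ * a * g)) * g⁻¹ := by group
    rw [e, h]; group
  · intro h
    have e : g⁻¹ * x * g * (g⁻¹ * a * g) = g⁻¹ * (x * a) * g := by group
    rw [e, h]; group

theorem gd_ix_conj (g x : G) : ix (g * x * g⁻¹) = ix x :=
  Cfsg.Agent.Lib.Helper24.CS3.idx_conj g x

theorem gd_ix_conj2 (g x : G) : ix (g⁻¹ * x * g) = ix x := by
  have h := gd_ix_conj g⁻¹ x
  rw [inv_inv] at h
  exact h

theorem gd_eq_of_le_of_ix [Finite G] {H K : Subgroup G} (hle : H ≤ K)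
    (h : H.index = K.index) : H = K :=
  Cfsg.Agent.Lib.Helper24.CS3.eq_of_le_of_index_eq' hle h

/-- `t ∣ n` in a `Conf`. -/
theorem gd_conf_dvd_n {m n t : ℕ} (hyp : Hyp G m n) {a : G} {A T : Subgroup G}
    (hc : Conf n t a A T) : t ∣ n := by
  obtain ⟨k, hk⟩ := hc.tn
  have hn := hyp.2.2.1
  have hk0 : k ≠ 0 := by
    rintro rfl
    rw [pow_zero] at hk; omega
  rw [hk]; exact dvd_pow_self t hk0

/-- `t ∤ m` in a `Conf`. -/
theorem gd_conf_not_dvd {m n t : ℕ} (hyp : Hyp G m n) {a : G} {A T : Subgroup G}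
    (hc : Conf n t a A T) : ¬ t ∣ m := by
  have htn := gd_conf_dvd_n hyp hc
  have hcop : Nat.gcd m n = 1 := hyp.2.2.2.1
  intro htm
  have h := Nat.dvd_gcd htm htn
  rw [hcop] at h
  exact hc.tp.one_lt.ne' (Nat.dvd_one.mp h)

/-- every element of `C(a) = A ⊔ T` commutes with every element of `A`. -/
theorem gd_conf_comm_A {n t : ℕ} {a : G} {A T : Subgroup G} (hc : Conf n t a A T) {x : G}
    (hx : x ∈ Cn a) {y : G} (hy : y ∈ A) : x * y = y * x := by
  rw [← hc.sup] at hx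
  have hle : A ⊔ T ≤ Cn y :=
    sup_le (fun z hz => gd_mem_cn.mpr (hc.a_ab z hz y hy))
      (fun z hz => gd_mem_cn.mpr (hc.a_t y hy z hz).symm)
  exact gd_mem_cn.mp (hle hx)

/-- an element of `C_G(T)` has centralizer containing `C(a)`. -/
theorem gd_conf_le_of_centT {n t : ℕ} {a : G} {A T : Subgroup G} (hc : Conf n t a A T) {w : G}
    (hw : w ∈ Subgroup.centralizer (T : Set G)) : Cn a ≤ Cn w := by
  have h2 : w ∈ Cn a := hc.cent hw
  rw [← hc.sup]
  apply sup_le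
  · intro y hy
    rw [gd_mem_cn]
    exact (gd_conf_comm_A hc h2 hy).symm
  · intro y hy
    rw [gd_mem_cn]
    exact Subgroup.mem_centralizer_iff.mp hw y hy

/-- if `g T g⁻¹ ≤ C(v)` then `g⁻¹ v g ∈ C_G(T)`. -/
theorem gd_conj_mem_centT {T : Subgroup G} {g v : G} (hg : ∀ x ∈ T, g * x * g⁻¹ ∈ Cn v) :
    g⁻¹ * v * g ∈ Subgroup.centralizer (T : Set G) := by
  rw [Subgroup.mem_centralizer_iff]
  intro x hx
  have h := gd_mem_cn.mp (hg x hx)
  have e : x * (g⁻¹ * v * g) = g⁻¹ * (g * x * g⁻¹ * v) * g := by group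
  rw [e, h]; group

/-- [S3] Step 3. -/
theorem pkgS3_of (hSylow : PkgSylow.{u}) : PkgS3.{u} := by
  intro G _ _ m n hyp t a A T ha hc v hv
  have htm : ¬ t ∣ m := gd_conf_not_dvd hyp hc
  have hidx : ¬ t ∣ (Cn v).index := by
    rw [show (Cn v).index = m from hv]; exact htm
  obtain ⟨g, hg⟩ := hSylow t hc.tp T (Cn v) hc.pT hidx
  have h1 : g⁻¹ * v * g ∈ Subgroup.centralizer (T : Set G) := gd_conj_mem_centT hg
  have h3 : Cn a ≤ Cn (g⁻¹ * v * g) := gd_conf_le_of_centT hc h1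
  have h4 : Cn a = Cn (g⁻¹ * v * g) := by
    apply gd_eq_of_le_of_ix h3
    show ix a = ix (g⁻¹ * v * g)
    rw [gd_ix_conj2, ha, hv]
  refine ⟨g, ?_⟩
  ext x
  rw [gd_mem_cn_conj, h4, gd_mem_cn_conj2]

end Cfsg.Agent.Lib.Helper78.CS3
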