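import Mathlib
import Cfsg.Agent.Lib.Helper41.CS3.GoodDefs
import Cfsg.Agent.Lib.Helper24.CS3.Basics
import Cfsg.Agent.Lib.Helper24.CS3.NGTools
import Cfsg.Agent.Lib.Helper78.CS3.GoodS3

/-!
# CS3 (S4284), part GOOD, package [S4] (Step 4), from [S4B] and [AT].
-/

set_option autoImplicit false

namespace Cfsg.Agent.Lib.Helper78.CS3

open Cfsg.Agent.Lib.Helper81.CS3 Cfsg.Agent.Lib.Helper41.CS3

universe u

variable {G : Type u} [Group G]

theorem gd_orderOf_conj2 (g x : G) : orderOf (g⁻¹ * x * g) = orderOf x := by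
  have h := Cfsg.Agent.Lib.Helper24.CS3.orderOf_conj' g⁻¹ x
  rw [inv_inv] at h
  exact h

theorem gd_prim_conj {r : ℕ} {g x : G} (h : Prim r x) : Prim r (g * x * g⁻¹) := by
  obtain ⟨k, hk⟩ := h
  exact ⟨k, by rw [Cfsg.Agent.Lib.Helper24.CS3.orderOf_conj', hk]⟩

theorem gd_prim_conj2 {r : ℕ} {g x : G} (h : Prim r x) : Prim r (g⁻¹ * x * g) := by
  obtain ⟨k, hk⟩ := h
  exact ⟨k, by rw [gd_orderOf_conj2, hk]⟩

theorem gd_prim_of_mem {t : ℕ} (ht : t.Prime) {T : Subgroup G} (hT : IsPGroup t T) {v : G}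
    (hv : v ∈ T) : Prim t v := by
  obtain ⟨k, hk⟩ := hT ⟨v, hv⟩
  have h1 : v ^ t ^ k = 1 := by
    have := congrArg Subtype.val hk
    simpa using this
  obtain ⟨j, -, hj⟩ := (Nat.dvd_prime_pow ht).mp (orderOf_dvd_of_pow_eq_one h1)
  exact ⟨j, hj⟩

/-- [S4] Step 4. -/
theorem pkgS4_of (hS4b : PkgS4b.{u}) (hAt : PkgAt.{u}) : PkgS4.{u} := by
  intro G _ _ m n hyp s t a A T hgood hc hS3 r u hr hrm hru hiu
  have hm1 := hyp.2.1
  have hn1 := hyp.2.2.1
  have htm : ¬ t ∣ m := gd_conf_not_dvd hyp hc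
  have hrt : r ≠ t := by rintro rfl; exact htm hrm
  have hst : s ≠ t := by rintro rfl; exact htm hgood.sm
  have key : ∀ u' : G, Prim r u' → ix u' = m * n → u' ∈ Cn a → False := by
    intro u' hp hi hmem
    have hle := hAt n t a A T hc r u' hr hrt hp hmem
    have hd := Subgroup.index_dvd_of_le hle
    rw [show (Cn u').index = m * n from hi, show (Cn a).index = m from hgood.ixa] at hd
    have : m * n ≤ m := Nat.le_of_dvd (by omega) hd
    nlinarith
  obtain ⟨g, v, hvT, ⟨z, hzT, hvz⟩, hvu⟩ := hS4b m n hyp t a A T hc u hiu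
  have hp1 : Prim r (g * u * g⁻¹) := gd_prim_conj hru
  have hi1 : ix (g * u * g⁻¹) = m * n := by rw [gd_ix_conj]; exact hiu
  have hva : v ∈ Cn a := by rw [← hc.sup]; exact Subgroup.mem_sup_right hvT
  have hcomm : (g * u * g⁻¹) * v = v * (g * u * g⁻¹) := (gd_mem_cn.mp hvu).symm
  rcases Cfsg.Agent.Lib.Helper24.CS3.index_mem hyp v with h | h | h
  · have hvc : v ∈ Subgroup.center G := (Cfsg.Agent.Lib.Helper71.CS3.idx_eq_one_iff v).mp h
    exact hvz (Subgroup.mem_center_iff.mp hvc z).symm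
  · obtain ⟨g', hg'⟩ := hS3 v h
    have h1 : g * u * g⁻¹ ∈ Cn v := gd_mem_cn.mpr hcomm
    rw [hg', gd_mem_cn_conj] at h1
    exact key _ (gd_prim_conj2 hp1) (by rw [gd_ix_conj2]; exact hi1) h1
  · obtain ⟨k, hk⟩ := hgood.prim
    obtain ⟨j, hj⟩ := gd_prim_of_mem hc.tp hc.pT hvT
    have hco : (orderOf v).Coprime (orderOf a) := by
      rw [hk, hj]
      exact Nat.Coprime.pow _ _ ((Nat.coprime_primes hc.tp hgood.sp).mpr (Ne.symm hst))
    have hle := Cfsg.Agent.Lib.Helper24.CS3.cent_le_of_max (N := m * n)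
      (Cfsg.Agent.Lib.Helper24.CS3.index_le hyp) v a h (gd_mem_cn.mp hva) hco
    exact key _ hp1 hi1 (hle (gd_mem_cn.mpr hcomm))

end Cfsg.Agent.Lib.Helper78.CS3
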