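import Mathlib
import Cfsg.Agent.Lib.Helper41.CS3.GoodDefs
import Cfsg.Agent.Lib.Helper78.CS3.GoodS3

/-!
# CS3 (S4284), part GOOD, package [S4B] (the Sylow part of Step 4).
-/

set_option autoImplicit false

namespace Cfsg.Agent.Lib.Helper78.CS3

open Cfsg.Agent.Lib.Helper81.CS3 Cfsg.Agent.Lib.Helper41.CS3

universe u

variable {G : Type u} [Group G]

theorem gd_pow_eq_of_mul {t e f X Y : ℕ} (ht : t.Prime) (hX : ¬ t ∣ X) (hY : ¬ t ∣ Y)
    (h : t ^ e * X = t ^ f * Y) : e = f := by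
  have c1 : Nat.Coprime (t ^ e) Y :=
    Nat.Coprime.pow_left e ((Nat.Prime.coprime_iff_not_dvd ht).mpr hY)
  have c2 : Nat.Coprime (t ^ f) X :=
    Nat.Coprime.pow_left f ((Nat.Prime.coprime_iff_not_dvd ht).mpr hX)
  have d1 : t ^ e ∣ t ^ f := c1.dvd_of_dvd_mul_right (Dvd.intro X h)
  have d2 : t ^ f ∣ t ^ e := c2.dvd_of_dvd_mul_right (Dvd.intro Y h.symm)
  have l1 := (Nat.pow_dvd_pow_iff_le_right ht.one_lt).mp d1
  have l2 := (Nat.pow_dvd_pow_iff_le_right ht.one_lt).mp d2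
  omega

/-- [S4B] the Sylow part of Step 4. -/
theorem pkgS4b_of (hSylow : PkgSylow.{u}) : PkgS4b.{u} := by
  intro G _ _ m n hyp t a A T hc u hiu
  haveI : Fact t.Prime := ⟨hc.tp⟩
  have ht := hc.tp
  have htm : ¬ t ∣ m := gd_conf_not_dvd hyp hc
  obtain ⟨k, hk⟩ := hc.tn
  let Pc : Sylow t ↥(Cn u) := default
  let P' : Subgroup G := (Pc : Subgroup ↥(Cn u)).map (Cn u).subtype
  have hP'le : P' ≤ Cn u := Subgroup.map_subtype_le _
  have hP'card : Nat.card P' = Nat.card (Pc : Subgroup ↥(Cn u)) :=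
    Subgroup.card_map_of_injective (Subgroup.subtype_injective _)
  have hP'p : IsPGroup t P' := Pc.isPGroup'.map _
  obtain ⟨e, he⟩ := IsPGroup.iff_card.mp hc.pT
  obtain ⟨f, hf⟩ := IsPGroup.iff_card.mp Pc.isPGroup'
  have hG1 : Nat.card T * T.index = Nat.card G := Subgroup.card_mul_index T
  have hG2 : Nat.card (Cn u) * (Cn u).index = Nat.card G := Subgroup.card_mul_index _
  have hG3 : Nat.card (Pc : Subgroup ↥(Cn u)) * (Pc : Subgroup ↥(Cn u)).index =
      Nat.card (Cn u) := Subgroup.card_mul_index _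
  have hPi : ¬ t ∣ (Pc : Subgroup ↥(Cn u)).index := Pc.not_dvd_index
  have hef : e = f + k := by
    apply gd_pow_eq_of_mul ht hc.sylT (Y := (Pc : Subgroup ↥(Cn u)).index * m) ?_ ?_
    · intro hd
      rcases (Nat.Prime.dvd_mul ht).mp hd with h | h
      · exact hPi h
      · exact htm h
    · rw [← he, hG1, ← hG2, ← hG3, hf, show (Cn u).index = m * n from hiu, hk]; ring
  have hcard : Nat.card T = n * Nat.card P' := by
    rw [he, hP'card, hf, hk, hef]; ring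
  obtain ⟨g, hg⟩ := hSylow t ht P' T hP'p hc.sylT
  by_contra hcon
  obtain ⟨y', hy', z, hz, hne⟩ : ∃ y' ∈ T, ∃ z ∈ T, y' * z ≠ z * y' := by
    by_contra hall
    apply hc.nab
    intro x hx y hy
    by_contra hxy
    exact hall ⟨x, hx, y, hy, hxy⟩
  have hcls := hc.cls y' hy' ⟨z, hz, hne⟩
  let T1 : Subgroup G := P'.map (MulAut.conj g).toMonoidHom
  have hT1card : Nat.card T1 = Nat.card P' :=
    Subgroup.card_map_of_injective (MulAut.conj g).injective
  have hT1 : ∀ x ∈ T1, x ∈ T ∧ x ∈ Cn (g * u * g⁻¹) := by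
    intro x hx
    obtain ⟨w, hw, rfl⟩ := Subgroup.mem_map.mp hx
    refine ⟨by simpa [MulAut.conj_apply] using hg w hw, ?_⟩
    rw [gd_mem_cn_conj]
    have e1 : g⁻¹ * ((MulAut.conj g).toMonoidHom w) * g = w := by
      simp [MulAut.conj_apply, mul_assoc]
    rw [e1]; exact hP'le hw
  have hT1le : T1 ≤ Cn y' ⊓ T := by
    intro x hx
    obtain ⟨hxT, hxC⟩ := hT1 x hx
    have hcomm : ∀ z ∈ T, x * z = z * x := by
      intro z hz
      by_contra hne'
      exact hcon ⟨g, x, hxT, ⟨z, hz, hne'⟩, hxC⟩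
    exact ⟨gd_mem_cn.mpr (hcomm y' hy'), hxT⟩
  have hn0 : 0 < n := by have := hyp.2.2.1; omega
  have hceq : Nat.card T1 = Nat.card (Cn y' ⊓ T : Subgroup G) := by
    rw [hT1card]
    have h2 : n * Nat.card P' = n * Nat.card (Cn y' ⊓ T : Subgroup G) := by rw [← hcard, hcls]
    exact Nat.eq_of_mul_eq_mul_left hn0 h2
  have heq : T1 = Cn y' ⊓ T := Subgroup.eq_of_le_of_card_ge hT1le (by rw [hceq])
  have hy'1 : y' ∈ T1 := by
    rw [heq]; exact ⟨gd_mem_cn.mpr rfl, hy'⟩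
  obtain ⟨hxT, hxC⟩ := hT1 y' hy'1
  exact hcon ⟨g, y', hxT, ⟨z, hz, hne⟩, hxC⟩

end Cfsg.Agent.Lib.Helper78.CS3
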